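import Mathlib
import Cfsg.Prelude.Def_Perm

set_option autoImplicit false
set_option linter.unusedSectionVars false

/-!
Permutation modules over an arbitrary field: invariant matrices act equivariantly, a Sylow
`p`-subgroup of a transitive group of `p`-power degree is transitive, and a non-zero subspace of
the permutation module in characteristic `p` that is invariant under a transitive `p`-group
contains the constant functions.
-/

namespace Cfsg.Agent.Lib.Helper12.Orbital

open MulAction
open scoped Matrix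

section

variable {G : Type*} [Group G] {Ω : Type*} [Fintype Ω] [MulAction G Ω] {K : Type*} [Field K]

/-- a matrix invariant under the diagonal action -/
def MInv (G : Type*) [Group G] {Ω : Type*} [MulAction G Ω] {K : Type*} (A : Matrix Ω Ω K) : Prop :=
  ∀ (g : G) (x y : Ω), A (g • x) (g • y) = A x y

theorem mulVec_permRep (A : Matrix Ω Ω K) (hA : MInv G A) (g : G) (f : Ω → K) :
    A *ᵥ (Cfsg.permRep K G Ω g f) = Cfsg.permRep K G Ω g (A *ᵥ f) := by
  funext x
  show ∑ y, A x y * f (g⁻¹ • y) = ∑ y, A (g⁻¹ • x) y * f y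
  refine Fintype.sum_equiv (MulAction.toPerm g⁻¹) _ _ (fun y => ?_)
  show A x y * f (g⁻¹ • y) = A (g⁻¹ • x) (g⁻¹ • y) * f (g⁻¹ • y)
  rw [hA]

theorem MInv.transpose {A : Matrix Ω Ω K} (hA : MInv G A) : MInv G Aᵀ :=
  fun g x y => hA g y x

theorem MInv.sub {A B : Matrix Ω Ω K} (hA : MInv G A) (hB : MInv G B) : MInv G (A - B) :=
  fun g x y => by rw [Matrix.sub_apply, Matrix.sub_apply, hA, hB]

theorem MInv.smul_one [DecidableEq Ω] (c : K) : MInv G (c • (1 : Matrix Ω Ω K)) := by
  intro g x y
  rw [Matrix.smul_apply, Matrix.smul_apply, Matrix.one_apply, Matrix.one_apply]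
  congr 1
  refine if_congr ?_ rfl rfl
  exact smul_left_cancel_iff g

/-- the image of a subrepresentation under an invariant matrix -/
def mapSub (A : Matrix Ω Ω K) (hA : MInv G A) (W : Subrepresentation (Cfsg.permRep K G Ω)) :
    Subrepresentation (Cfsg.permRep K G Ω) where
  toSubmodule := W.toSubmodule.map A.mulVecLin
  apply_mem_toSubmodule g v hv := by
    obtain ⟨w, hw, rfl⟩ := hv
    refine ⟨Cfsg.permRep K G Ω g w, W.apply_mem_toSubmodule g hw, ?_⟩
    exact mulVec_permRep A hA g w

/-- the preimage of a subrepresentation under an invariant matrix -/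
def comapSub (A : Matrix Ω Ω K) (hA : MInv G A) (W : Subrepresentation (Cfsg.permRep K G Ω)) :
    Subrepresentation (Cfsg.permRep K G Ω) where
  toSubmodule := W.toSubmodule.comap A.mulVecLin
  apply_mem_toSubmodule g v hv := by
    show A *ᵥ (Cfsg.permRep K G Ω g v) ∈ W.toSubmodule
    rw [mulVec_permRep A hA]
    exact W.apply_mem_toSubmodule g hv

end

section sylow

variable {G : Type*} [Group G] [Finite G] {Ω : Type*} [Fintype Ω] [MulAction G Ω]
  [IsPretransitive G Ω]

/-- a Sylow `p`-subgroup of a transitive group of `p`-power degree is transitive -/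
theorem sylow_transitive {p f : ℕ} [Fact p.Prime] (hcard : Fintype.card Ω = p ^ f)
    (P : Sylow p G) (x y : Ω) : ∃ g ∈ (P : Subgroup G), g • x = y := by
  have h1 : (stabilizer G x).index = p ^ f := by
    rw [index_stabilizer_of_transitive, Nat.card_eq_fintype_card, hcard]
  have h2 : (stabilizer (P : Subgroup G) x) = (stabilizer G x).subgroupOf (P : Subgroup G) := by
    ext g
    rw [Subgroup.mem_subgroupOf, mem_stabilizer_iff, mem_stabilizer_iff]
    rfl
  have h3 : (stabilizer (P : Subgroup G) x).index = (stabilizer G x).relIndex (P : Subgroup G) := by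
    rw [h2]
    rfl
  have h4 : (stabilizer G x).relIndex (P : Subgroup G) * (P : Subgroup G).index =
      (stabilizer G x ⊓ (P : Subgroup G)).index := by
    rw [← Subgroup.inf_relIndex_right, Subgroup.relIndex_mul_index inf_le_right]
  have h5 : p ^ f ∣ (stabilizer G x).relIndex (P : Subgroup G) * (P : Subgroup G).index := by
    rw [h4, ← h1]
    exact Subgroup.index_dvd_of_le inf_le_left
  have h6 : Nat.Coprime (p ^ f) (P : Subgroup G).index :=
    Nat.Coprime.pow_left f ((Nat.Prime.coprime_iff_not_dvd Fact.out).mpr P.not_dvd_index)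
  have h7 : p ^ f ∣ (orbit (P : Subgroup G) x).ncard := by
    rw [← index_stabilizer, h3]
    exact h6.dvd_of_dvd_mul_right h5
  have h8 : (orbit (P : Subgroup G) x).ncard ≤ Nat.card Ω := Set.ncard_le_card _
  have h9 : 0 < (orbit (P : Subgroup G) x).ncard := by
    rw [Set.ncard_pos]
    exact ⟨x, mem_orbit_self x⟩
  have h10 : orbit (P : Subgroup G) x = Set.univ := by
    rw [Set.eq_univ_iff_ncard]
    have := Nat.le_of_dvd h9 h7
    rw [Nat.card_eq_fintype_card, hcard] at h8 ⊢
    omega
  have h11 : y ∈ orbit (P : Subgroup G) x := by rw [h10]; trivial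
  obtain ⟨g, hg⟩ := h11
  exact ⟨g, g.2, hg⟩

end sylow

section fixed

variable {G : Type*} [Group G] {Ω : Type*} [Fintype Ω] [MulAction G Ω] {K : Type*} [Field K]

/-- In characteristic `p`, a non-zero subspace of the permutation module invariant under a
transitive finite `p`-subgroup contains the constant functions. -/
theorem one_mem_of_pgroup {p : ℕ} [Fact p.Prime] [CharP K p] (P : Subgroup G) [Finite P]
    (hP : IsPGroup p P) (hPt : ∀ x y : Ω, ∃ g ∈ P, g • x = y)
    (U : Submodule K (Ω → K)) (hU : ∀ g ∈ P, ∀ u ∈ U, Cfsg.permRep K G Ω g u ∈ U) (hne : U ≠ ⊥) :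
    (fun _ => (1 : K)) ∈ U := by
  classical
  obtain ⟨u₀, hu₀U, hu₀⟩ := (Submodule.ne_bot_iff U).mp hne
  let _ : Algebra (ZMod p) K := ZMod.algebra K p
  let F : P → (Ω → K) := fun g => Cfsg.permRep K G Ω (g : G) u₀
  let S : Submodule (ZMod p) (Ω → K) := Submodule.span (ZMod p) (Set.range F)
  have hSU : S ≤ U.restrictScalars (ZMod p) := by
    apply Submodule.span_le.mpr
    rintro _ ⟨g, rfl⟩
    exact hU g g.2 u₀ hu₀U
  have hSinv : ∀ (g : P) (s : Ω → K), s ∈ S → Cfsg.permRep K G Ω (g : G) s ∈ S := by
    intro g s hs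
    induction hs using Submodule.span_induction with
    | mem x hx =>
      obtain ⟨h, rfl⟩ := hx
      apply Submodule.subset_span
      refine ⟨g * h, ?_⟩
      show Cfsg.permRep K G Ω ((g : G) * (h : G)) u₀ = _
      rw [map_mul]
      rfl
    | zero => rw [map_zero]; exact S.zero_mem
    | add x y _ _ hx hy => rw [map_add]; exact S.add_mem hx hy
    | smul c x _ hx =>
      have : Cfsg.permRep K G Ω (g : G) (c • x) = c • Cfsg.permRep K G Ω (g : G) x := rfl
      rw [this]
      exact S.smul_mem c hx
  have hfin : Module.Finite (ZMod p) S := Module.Finite.span_of_finite (ZMod p) (Set.finite_range F)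
  have hSfin : Finite S := Module.finite_of_finite (ZMod p)
  let act : MulAction P S :=
    { smul := fun g s => ⟨Cfsg.permRep K G Ω (g : G) s.1, hSinv g s.1 s.2⟩
      one_smul := fun s => Subtype.ext (by
        show Cfsg.permRep K G Ω ((1 : P) : G) s.1 = s.1
        rw [Subgroup.coe_one, map_one]
        rfl)
      mul_smul := fun g h s => Subtype.ext (by
        show Cfsg.permRep K G Ω ((g * h : P) : G) s.1 =
          Cfsg.permRep K G Ω (g : G) (Cfsg.permRep K G Ω (h : G) s.1)
        rw [Subgroup.coe_mul, map_mul]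
        rfl) }
  have hu₀S : u₀ ∈ S := by
    apply Submodule.subset_span
    refine ⟨1, ?_⟩
    show Cfsg.permRep K G Ω ((1 : P) : G) u₀ = u₀
    rw [Subgroup.coe_one, map_one]
    rfl
  have hpcard : p ∣ Nat.card S := by
    have h1 : addOrderOf (⟨u₀, hu₀S⟩ : S) = p := by
      apply addOrderOf_eq_prime
      · apply Subtype.ext
        show p • u₀ = 0
        funext x
        rw [Pi.smul_apply, nsmul_eq_mul, CharP.cast_eq_zero K p, zero_mul]
        rfl
      · intro h
        exact hu₀ (congrArg Subtype.val h)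
    have h2 := addOrderOf_dvd_natCard (⟨u₀, hu₀S⟩ : S)
    rw [h1] at h2
    exact h2
  have h0 : (0 : S) ∈ fixedPoints P S := by
    intro g
    apply Subtype.ext
    show Cfsg.permRep K G Ω (g : G) (0 : Ω → K) = 0
    rw [map_zero]
  obtain ⟨b, hb, hb0⟩ := hP.exists_fixed_point_of_prime_dvd_card_of_fixed_point S hpcard h0
  have hbfix : ∀ g ∈ P, ∀ x : Ω, b.1 (g⁻¹ • x) = b.1 x := by
    intro g hg x
    have h1 : (⟨g, hg⟩ : P) • b = b := hb ⟨g, hg⟩
    have h2 : Cfsg.permRep K G Ω g b.1 = b.1 := congrArg Subtype.val h1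
    exact congrFun h2 x
  obtain ⟨x₀⟩ : Nonempty Ω := by
    by_contra hemp
    rw [not_nonempty_iff] at hemp
    exact hu₀ (funext fun x => isEmptyElim x)
  have hconst : ∀ x : Ω, b.1 x = b.1 x₀ := by
    intro x
    obtain ⟨g, hg, hgx⟩ := hPt x x₀
    have := hbfix g hg x₀
    rw [← hgx, inv_smul_smul] at this
    rw [hgx] at this
    exact this
  have hc : b.1 x₀ ≠ 0 := by
    intro h
    apply hb0
    apply Subtype.ext
    funext x
    rw [hconst x, h]
    rfl
  have hbU : b.1 ∈ U := hSU b.2
  have : (fun _ => (1 : K)) = (b.1 x₀)⁻¹ • b.1 := by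
    funext x
    rw [Pi.smul_apply, smul_eq_mul, hconst x, inv_mul_cancel₀ hc]
  rw [this]
  exact U.smul_mem _ hbU

end fixed

end Cfsg.Agent.Lib.Helper12.Orbital
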