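import Mathlib

set_option autoImplicit false
set_option linter.unusedSectionVars false

/-!
Functions on `ZMod p` with values in a field `K` of characteristic `p`, as polynomial functions:
the subspaces `Vr r` of polynomial functions of degree `< r`, the shift `f ↦ f (· - 1)`, and the
classification of shift-invariant subspaces.
-/

namespace Cfsg.Agent.Lib.Helper12.PolyFun

open Polynomial Module

variable {p : ℕ} [Fact p.Prime] {K : Type*} [Field K] [CharP K p]

theorem cast_injective : Function.Injective (ZMod.cast : ZMod p → K) :=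
  (ZMod.castHom (dvd_refl p) K).injective

theorem cast_sub_one (j : ZMod p) : (ZMod.cast (j - 1) : K) = ZMod.cast j - 1 := by
  have h := map_sub (ZMod.castHom (dvd_refl p) K) j 1
  rw [map_one] at h
  exact h

/-- evaluation of polynomials on `ZMod p` -/
noncomputable def evalFun (p : ℕ) [Fact p.Prime] (K : Type*) [Field K] [CharP K p] :
    K[X] →ₗ[K] (ZMod p → K) where
  toFun P := fun j => P.eval (ZMod.cast j : K)
  map_add' P Q := by funext j; simp
  map_smul' c P := by funext j; simp

theorem evalFun_apply (P : K[X]) (j : ZMod p) : evalFun p K P j = P.eval (ZMod.cast j : K) := rfl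

/-- the polynomial functions of degree `< r` -/
noncomputable def Vr (p : ℕ) [Fact p.Prime] (K : Type*) [Field K] [CharP K p] (r : ℕ) :
    Submodule K (ZMod p → K) :=
  (degreeLT K r).map (evalFun p K)

theorem mem_Vr {r : ℕ} {f : ZMod p → K} :
    f ∈ Vr p K r ↔ ∃ P : K[X], P.degree < r ∧ ∀ j : ZMod p, f j = P.eval (ZMod.cast j : K) := by
  constructor
  · rintro ⟨P, hP, rfl⟩
    exact ⟨P, mem_degreeLT.mp hP, fun j => rfl⟩
  · rintro ⟨P, hP, hf⟩
    exact ⟨P, mem_degreeLT.mpr hP, funext fun j => (hf j).symm⟩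

theorem Vr_mono {r s : ℕ} (h : r ≤ s) : Vr p K r ≤ Vr p K s := by
  intro f hf
  rw [mem_Vr] at hf ⊢
  obtain ⟨P, hP, hf⟩ := hf
  exact ⟨P, lt_of_lt_of_le hP (by exact_mod_cast h), hf⟩

theorem eq_zero_of_evalFun {P : K[X]} (hP : P.degree < p) (h : evalFun p K P = 0) : P = 0 := by
  classical
  have hcard : (Finset.univ.image (ZMod.cast : ZMod p → K)).card = p := by
    rw [Finset.card_image_of_injective _ cast_injective, Finset.card_univ, ZMod.card]
  apply Polynomial.eq_zero_of_degree_lt_of_eval_finset_eq_zero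
    (Finset.univ.image (ZMod.cast : ZMod p → K))
  · rw [hcard]; exact hP
  · intro x hx
    obtain ⟨j, -, rfl⟩ := Finset.mem_image.mp hx
    exact congrFun h j

theorem Vr_zero : Vr p K 0 = ⊥ := by
  rw [eq_bot_iff]
  intro f hf
  rw [mem_Vr] at hf
  obtain ⟨P, hP, hf⟩ := hf
  have : P = 0 := by
    rw [← degree_eq_bot]
    exact (WithBot.lt_coe_bot.mp (by exact_mod_cast hP))
  rw [Submodule.mem_bot]
  funext j
  rw [hf j, this]
  simp

theorem finrank_Vr {r : ℕ} (hr : r ≤ p) : finrank K (Vr p K r) = r := by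
  have h1 : Vr p K r = LinearMap.range ((evalFun p K).domRestrict (degreeLT K r)) := by
    ext f
    constructor
    · rintro ⟨P, hP, rfl⟩
      exact ⟨⟨P, hP⟩, rfl⟩
    · rintro ⟨⟨P, hP⟩, rfl⟩
      exact ⟨P, hP, rfl⟩
  rw [h1, LinearMap.finrank_range_of_inj, (degreeLTEquiv K r).finrank_eq, Module.finrank_fin_fun]
  intro x y hxy
  have h2 : evalFun p K ((x : K[X]) - (y : K[X])) = 0 := by
    rw [map_sub]
    exact sub_eq_zero.mpr hxy
  have h3 : ((x : K[X]) - (y : K[X])).degree < p := by
    have := (degreeLT K r).sub_mem x.2 y.2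
    exact lt_of_lt_of_le (mem_degreeLT.mp this) (by exact_mod_cast hr)
  exact Subtype.ext (sub_eq_zero.mp (eq_zero_of_evalFun h3 h2))

theorem Vr_top : Vr p K p = ⊤ := by
  apply Submodule.eq_top_of_finrank_eq
  rw [finrank_Vr le_rfl, Module.finrank_fintype_fun_eq_card, ZMod.card]

theorem exists_poly (f : ZMod p → K) :
    ∃ P : K[X], P.degree < p ∧ ∀ j : ZMod p, f j = P.eval (ZMod.cast j : K) := by
  have : f ∈ Vr p K p := by rw [Vr_top]; trivial
  exact mem_Vr.mp this

/-- the shift operator -/
def shiftL (p : ℕ) (K : Type*) [Field K] : (ZMod p → K) →ₗ[K] (ZMod p → K) where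
  toFun f := fun j => f (j - 1)
  map_add' _ _ := rfl
  map_smul' _ _ := rfl

theorem shiftL_apply (f : ZMod p → K) (j : ZMod p) : shiftL p K f j = f (j - 1) := rfl

/-- the difference operator lowers the degree -/
theorem shift_sub_mem_Vr {r : ℕ} {f : ZMod p → K} (hf : f ∈ Vr p K (r + 1)) :
    shiftL p K f - f ∈ Vr p K r := by
  rw [mem_Vr] at hf ⊢
  obtain ⟨P, hP, hf⟩ := hf
  refine ⟨P.comp (X - C 1) - P, ?_, ?_⟩
  · by_cases hP0 : P = 0
    · rw [hP0]
      simp only [zero_comp, sub_self, degree_zero]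
      exact WithBot.bot_lt_coe r
    · have hnd : (P.comp (X - C 1)).natDegree = P.natDegree := by
        rw [natDegree_comp, natDegree_X_sub_C, mul_one]
      have hlc : (P.comp (X - C 1)).leadingCoeff = P.leadingCoeff := by
        rw [leadingCoeff_comp (by rw [natDegree_X_sub_C]; exact one_ne_zero), leadingCoeff_X_sub_C,
          one_pow, mul_one]
      have hP'0 : P.comp (X - C 1) ≠ 0 := by
        intro h
        rw [h, leadingCoeff_zero] at hlc
        exact hP0 (leadingCoeff_eq_zero.mp hlc.symm)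
      have hd : (P.comp (X - C 1)).degree = P.degree := by
        rw [degree_eq_natDegree hP'0, degree_eq_natDegree hP0, hnd]
      have hlt := degree_sub_lt_left hd hP'0 hlc
      by_cases hQ0 : P.comp (X - C 1) - P = 0
      · rw [hQ0, degree_zero]
        exact WithBot.bot_lt_coe r
      · rw [← natDegree_lt_iff_degree_lt hQ0]
        have h1 : (P.comp (X - C 1) - P).natDegree < (P.comp (X - C 1)).natDegree :=
          natDegree_lt_natDegree hQ0 hlt
        have h2 : P.natDegree < r + 1 := (natDegree_lt_iff_degree_lt hP0).mpr hP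
        omega
  · intro j
    rw [Pi.sub_apply, shiftL_apply, hf, hf, eval_sub, eval_comp, eval_sub, eval_X, eval_C,
      cast_sub_one]

theorem const_of_shift_eq {f : ZMod p → K} (h : shiftL p K f = f) (j : ZMod p) : f j = f 0 := by
  have h1 : ∀ n : ℕ, f (n : ZMod p) = f 0 := by
    intro n
    induction n with
    | zero => simp
    | succ n ih =>
      have h2 := congrFun h ((n : ZMod p) + 1)
      rw [shiftL_apply, add_sub_cancel_right] at h2
      rw [Nat.cast_succ, ← h2, ih]
  have := h1 j.val
  rwa [ZMod.natCast_zmod_val] at this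

theorem const_mem_Vr (c : K) {r : ℕ} (hr : 1 ≤ r) : (fun _ => c) ∈ Vr p K r := by
  rw [mem_Vr]
  refine ⟨C c, lt_of_le_of_lt degree_C_le (by exact_mod_cast hr), fun j => by simp⟩

/-- if the difference of `f` has degree `< r` then `f` has degree `< r + 1` -/
theorem mem_Vr_of_shift_sub {r : ℕ} (hr : r + 1 ≤ p) {f : ZMod p → K}
    (hf : shiftL p K f - f ∈ Vr p K r) : f ∈ Vr p K (r + 1) := by
  let N : (ZMod p → K) →ₗ[K] (ZMod p → K) := shiftL p K - LinearMap.id
  have hN : ∀ x ∈ Vr p K (r + 1), N x ∈ Vr p K r := fun x hx => shift_sub_mem_Vr hx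
  let Nr : Vr p K (r + 1) →ₗ[K] Vr p K r := N.restrict hN
  have hker : finrank K (LinearMap.ker Nr) ≤ 1 := by
    have h1 : (fun _ => (1 : K)) ∈ Vr p K (r + 1) := const_mem_Vr 1 (by omega)
    have h2 : (⟨fun _ => (1 : K), h1⟩ : Vr p K (r + 1)) ∈ LinearMap.ker Nr := by
      rw [LinearMap.mem_ker]
      apply Subtype.ext
      show shiftL p K (fun _ => (1 : K)) - (fun _ => (1 : K)) = 0
      funext j
      simp [shiftL_apply]
    refine finrank_le_one ⟨⟨fun _ => (1 : K), h1⟩, h2⟩ (fun w => ?_)
    have hw : Nr w.1 = 0 := w.2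
    have hw' : shiftL p K (w.1 : ZMod p → K) - (w.1 : ZMod p → K) = 0 := congrArg Subtype.val hw
    have hc := const_of_shift_eq (sub_eq_zero.mp hw')
    refine ⟨(w.1 : ZMod p → K) 0, ?_⟩
    apply Subtype.ext
    apply Subtype.ext
    funext j
    show (w.1 : ZMod p → K) 0 • (1 : K) = (w.1 : ZMod p → K) j
    rw [hc j, smul_eq_mul, mul_one]
  have hrn := LinearMap.finrank_range_add_finrank_ker Nr
  rw [finrank_Vr hr] at hrn
  have hrange : LinearMap.range Nr = ⊤ := by
    apply Submodule.eq_top_of_finrank_eq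
    have h1 : finrank K (LinearMap.range Nr) ≤ finrank K (Vr p K r) := Submodule.finrank_le _
    rw [finrank_Vr (by omega)] at h1 ⊢
    omega
  have : (⟨shiftL p K f - f, hf⟩ : Vr p K r) ∈ LinearMap.range Nr := by rw [hrange]; trivial
  obtain ⟨g, hg⟩ := this
  have hg' : shiftL p K (g : ZMod p → K) - (g : ZMod p → K) = shiftL p K f - f :=
    congrArg Subtype.val hg
  have h3 : shiftL p K (f - (g : ZMod p → K)) = f - (g : ZMod p → K) := by
    rw [map_sub]
    have h6 : shiftL p K f = shiftL p K (g : ZMod p → K) - (g : ZMod p → K) + f := by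
      rw [hg']
      abel
    rw [h6]
    abel
  have h4 := const_of_shift_eq h3
  have h5 : f = (g : ZMod p → K) + fun _ => (f - (g : ZMod p → K)) 0 := by
    funext j
    have := h4 j
    rw [Pi.sub_apply] at this
    rw [Pi.add_apply, ← this]
    ring
  rw [h5]
  exact (Vr p K (r + 1)).add_mem g.2 (const_mem_Vr _ (by omega))

/-- iterating the difference operator -/
theorem pow_apply_eq_zero_of_mem :
    ∀ (i : ℕ) (f : ZMod p → K), f ∈ Vr p K i →
      ((shiftL p K - LinearMap.id : Module.End K (ZMod p → K)) ^ i) f = 0 := by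
  intro i
  induction i with
  | zero =>
    intro f hf
    rw [Vr_zero] at hf
    rw [pow_zero, (Submodule.mem_bot K).mp hf]
    rfl
  | succ i ih =>
    intro f hf
    rw [pow_succ, Module.End.mul_apply]
    exact ih _ (shift_sub_mem_Vr hf)

theorem mem_Vr_of_pow_apply_eq_zero :
    ∀ (i : ℕ), i ≤ p → ∀ (f : ZMod p → K),
      ((shiftL p K - LinearMap.id : Module.End K (ZMod p → K)) ^ i) f = 0 →
      f ∈ Vr p K i := by
  intro i
  induction i with
  | zero =>
    intro _ f hf
    rw [pow_zero] at hf
    have : f = 0 := hf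
    rw [this]
    exact Submodule.zero_mem _
  | succ i ih =>
    intro hi f hf
    rw [pow_succ, Module.End.mul_apply] at hf
    exact mem_Vr_of_shift_sub hi (ih (by omega) _ hf)

/-- a shift-invariant subspace is the space of polynomial functions of degree less than its
dimension -/
theorem invariant_eq_Vr (W : Submodule K (ZMod p → K)) (hW : ∀ f ∈ W, shiftL p K f ∈ W) :
    finrank K W ≤ p ∧ W = Vr p K (finrank K W) := by
  have hle : finrank K W ≤ p := by
    have := Submodule.finrank_le W
    rwa [Module.finrank_fintype_fun_eq_card, ZMod.card] at this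
  refine ⟨hle, ?_⟩
  let N : (ZMod p → K) →ₗ[K] (ZMod p → K) := shiftL p K - LinearMap.id
  have hN : ∀ x ∈ W, N x ∈ W := fun x hx => W.sub_mem (hW x hx) hx
  let NW : Module.End K W := N.restrict hN
  have hnil : IsNilpotent NW := by
    refine ⟨p, ?_⟩
    rw [Module.End.pow_restrict]
    apply LinearMap.ext
    intro w
    apply Subtype.ext
    show (N ^ p) (w : ZMod p → K) = 0
    exact pow_apply_eq_zero_of_mem p _ (by rw [Vr_top]; trivial)
  have hpow : NW ^ finrank K W = 0 := by
    have h1 := LinearMap.aeval_self_charpoly NW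
    rw [hnil.charpoly_eq_X_pow_finrank] at h1
    simpa using h1
  have hsub : W ≤ Vr p K (finrank K W) := by
    intro w hw
    apply mem_Vr_of_pow_apply_eq_zero _ hle
    have h1 : (NW ^ finrank K W) ⟨w, hw⟩ = 0 := by rw [hpow]; rfl
    rw [Module.End.pow_restrict] at h1
    exact congrArg Subtype.val h1
  exact Submodule.eq_of_le_of_finrank_eq hsub (by rw [finrank_Vr hle])

end Cfsg.Agent.Lib.Helper12.PolyFun
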