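import Mathlib
import Cfsg.Prelude.Def_Perm
import Cfsg.Agent.Lib.Helper12.PolyFun

set_option autoImplicit false
set_option linter.unusedSectionVars false

/-!
Transitive permutation groups of prime degree `p`: coordinates in `ZMod p` in which a `p`-cycle
of the group is the translation by `1`, invariant subspaces of the permutation module as
polynomial functions, and the criterion "an invariant subspace of dimension `2 ≤ s ≤ p - 2`
forces the group to be affine, hence solvable".
-/

namespace Cfsg.Agent.Lib.Helper12.PrimeDeg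

open Polynomial Module MulAction Cfsg.Agent.Lib.Helper12.PolyFun
open scoped commutatorElement

theorem perm_apply_inv {β : Type*} (f : Equiv.Perm β) (x : β) : f (f⁻¹ x) = x :=
  Equiv.apply_symm_apply f x

section coord

variable {α : Type*} [Fintype α] [DecidableEq α] {p : ℕ} [Fact p.Prime]

/-- coordinates: a bijection with `ZMod p` turning some element of `G` into `x ↦ x + 1` -/
theorem exists_coord (hα : Fintype.card α = p) (G : Subgroup (Equiv.Perm α))
    [MulAction.IsPretransitive G α] :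
    ∃ (e : α ≃ ZMod p) (t : Equiv.Perm α), t ∈ G ∧ ∀ a, e (t a) = e a + 1 := by
  have hp : p.Prime := Fact.out
  have hne : Nonempty α := by
    rw [← Fintype.card_pos_iff, hα]
    exact hp.pos
  obtain ⟨a₀⟩ := hne
  have hdvd : p ∣ Nat.card G := by
    have h1 : (stabilizer G a₀).index = p := by
      rw [index_stabilizer_of_transitive, Nat.card_eq_fintype_card, hα]
    rw [← h1]
    exact Subgroup.index_dvd_card _
  obtain ⟨t, ht⟩ := exists_prime_orderOf_dvd_card' p hdvd
  have hσ : orderOf (t : Equiv.Perm α) = p := by rw [Subgroup.orderOf_coe, ht]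
  have hcyc : (t : Equiv.Perm α).IsCycle :=
    Equiv.Perm.isCycle_of_prime_order'' (by rw [hα]; exact hp) (by rw [hσ, hα])
  have hsupp : (t : Equiv.Perm α).support = Finset.univ := by
    apply Finset.eq_univ_of_card
    rw [← hcyc.orderOf, hσ, hα]
  have hmove : (t : Equiv.Perm α) a₀ ≠ a₀ := by
    rw [← Equiv.Perm.mem_support, hsupp]
    exact Finset.mem_univ _
  have hfix : ∀ m : ℕ, ((t : Equiv.Perm α) ^ m) a₀ = a₀ → p ∣ m := by
    intro m hm
    have h1 : (t : Equiv.Perm α) ^ m = 1 := hcyc.pow_eq_one_iff.mpr ⟨a₀, hmove, hm⟩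
    rw [← hσ]
    exact orderOf_dvd_of_pow_eq_one h1
  let φ : ZMod p → α := fun i => ((t : Equiv.Perm α) ^ i.val) a₀
  have hinj : Function.Injective φ := by
    intro i j hij
    have key : ∀ i j : ZMod p, i.val ≤ j.val → φ i = φ j → i = j := by
      intro i j hle h
      have h1 : ((t : Equiv.Perm α) ^ (j.val - i.val)) a₀ = a₀ := by
        have h2 : ((t : Equiv.Perm α) ^ j.val) a₀ =
            ((t : Equiv.Perm α) ^ i.val) (((t : Equiv.Perm α) ^ (j.val - i.val)) a₀) := by
          rw [← Equiv.Perm.mul_apply, ← pow_add, Nat.add_sub_cancel' hle]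
        have h3 : ((t : Equiv.Perm α) ^ i.val) a₀ =
            ((t : Equiv.Perm α) ^ i.val) (((t : Equiv.Perm α) ^ (j.val - i.val)) a₀) := by
          rw [← h2]
          exact h
        exact ((t : Equiv.Perm α) ^ i.val).injective h3.symm
      have h4 := hfix _ h1
      have h5 : j.val < p := ZMod.val_lt j
      have h6 : j.val - i.val = 0 := Nat.eq_zero_of_dvd_of_lt h4 (by omega)
      apply ZMod.val_injective
      omega
    rcases le_total i.val j.val with h | h
    · exact key i j h hij
    · exact (key j i h hij.symm).symm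
  have hbij : Function.Bijective φ := by
    rw [Fintype.bijective_iff_injective_and_card]
    exact ⟨hinj, by rw [ZMod.card, hα]⟩
  refine ⟨(Equiv.ofBijective φ hbij).symm, (t : Equiv.Perm α), t.2, fun a => ?_⟩
  obtain ⟨i, rfl⟩ := hbij.2 a
  have h1 : (t : Equiv.Perm α) (φ i) = φ (i + 1) := by
    show (t : Equiv.Perm α) (((t : Equiv.Perm α) ^ i.val) a₀) = ((t : Equiv.Perm α) ^ (i + 1).val) a₀
    rw [← Equiv.Perm.mul_apply, ← pow_succ']
    congr 1
    rw [pow_eq_pow_iff_modEq, hσ, ZMod.val_add, ZMod.val_one]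
    exact (Nat.mod_modEq _ _).symm
  rw [h1]
  have h2 : ∀ j, (Equiv.ofBijective φ hbij).symm (φ j) = j := fun j =>
    (Equiv.ofBijective φ hbij).symm_apply_apply j
  rw [h2, h2]

end coord

section powersum

variable {p : ℕ} [Fact p.Prime] {K : Type*} [Field K] [CharP K p]

theorem sum_cast_pow_lt (j : ℕ) (hj : j < p - 1) : ∑ x : ZMod p, (ZMod.cast x : K) ^ j = 0 := by
  have h := FiniteField.sum_pow_lt_card_sub_one (ZMod p) j (by rw [ZMod.card]; exact hj)
  have h2 := congrArg (ZMod.castHom (dvd_refl p) K) h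
  rw [map_sum, map_zero] at h2
  rw [← h2]
  refine Finset.sum_congr rfl (fun x _ => ?_)
  rw [map_pow]
  rfl

theorem sum_cast_pow_eq : ∑ x : ZMod p, (ZMod.cast x : K) ^ (p - 1) = -1 := by
  have hp : p.Prime := Fact.out
  have h1 : ∀ x : ZMod p, x ^ (p - 1) = 1 - (if x = 0 then 1 else 0) := by
    intro x
    split_ifs with hx
    · rw [hx, zero_pow (by have := hp.two_le; omega), sub_self]
    · rw [ZMod.pow_card_sub_one_eq_one hx, sub_zero]
  have h : ∑ x : ZMod p, x ^ (p - 1) = -1 := by
    simp_rw [h1]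
    rw [Finset.sum_sub_distrib, Finset.sum_const, Finset.card_univ, ZMod.card, Finset.sum_ite_eq']
    simp
  have h2 := congrArg (ZMod.castHom (dvd_refl p) K) h
  rw [map_sum, map_neg, map_one] at h2
  rw [← h2]
  refine Finset.sum_congr rfl (fun x _ => ?_)
  rw [map_pow]
  rfl

theorem sum_eval_eq_zero (Q : K[X]) (hQ : Q.natDegree < p - 1) :
    ∑ x : ZMod p, Q.eval (ZMod.cast x : K) = 0 := by
  simp_rw [Polynomial.eval_eq_sum_range]
  rw [Finset.sum_comm]
  refine Finset.sum_eq_zero (fun i hi => ?_)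
  rw [← Finset.mul_sum, sum_cast_pow_lt i (by rw [Finset.mem_range] at hi; omega), mul_zero]

theorem shift_inv_mem_Vr {s : ℕ} {f : ZMod p → K} (hf : f ∈ Vr p K s) :
    (fun j => f (j + 1)) ∈ Vr p K s := by
  rw [mem_Vr] at hf ⊢
  obtain ⟨P, hP, hf⟩ := hf
  refine ⟨P.comp (X + C 1), ?_, ?_⟩
  · by_cases hP0 : P = 0
    · rw [hP0, zero_comp]
      exact hP0 ▸ hP
    · have h1 : (P.comp (X + C 1)).natDegree = P.natDegree := by
        rw [natDegree_comp, natDegree_X_add_C, mul_one]
      have h2 : P.natDegree < s := (natDegree_lt_iff_degree_lt hP0).mpr hP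
      exact lt_of_le_of_lt degree_le_natDegree (by rw [h1]; exact_mod_cast h2)
  · intro j
    have hc : (ZMod.cast (j + 1) : K) = ZMod.cast j + 1 := by
      have h := map_add (ZMod.castHom (dvd_refl p) K) j 1
      rw [map_one] at h
      exact h
    show f (j + 1) = _
    rw [hf, eval_comp, eval_add, eval_X, eval_C, hc]

theorem evalFun_X_pow_mem (j s : ℕ) (h : j < s) : evalFun p K (X ^ j) ∈ Vr p K s := by
  refine ⟨X ^ j, mem_degreeLT.mpr ?_, rfl⟩
  rw [degree_X_pow]
  exact_mod_cast h

/-- duality: if `V_s` is invariant under `σ⁻¹` then `V_{p-s}` is invariant under `σ` -/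
theorem dual_invariant (σ : Equiv.Perm (ZMod p)) {s : ℕ} (hs1 : 1 ≤ s) (hsp : s ≤ p - 1)
    (h : ∀ f ∈ Vr p K s, f ∘ σ.symm ∈ Vr p K s) :
    ∀ f ∈ Vr p K (p - s), f ∘ σ ∈ Vr p K (p - s) := by
  have hp : p.Prime := Fact.out
  have hp2 := hp.two_le
  let U : Submodule K (ZMod p → K) :=
    { carrier := {f | ∀ g ∈ Vr p K s, ∑ x, f x * g x = 0}
      add_mem' := by
        intro f₁ f₂ h₁ h₂ g hg
        simp only [Pi.add_apply, add_mul, Finset.sum_add_distrib]
        rw [h₁ g hg, h₂ g hg, add_zero]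
      zero_mem' := by
        intro g _
        simp
      smul_mem' := by
        intro c f hf g hg
        simp only [Pi.smul_apply, smul_eq_mul, mul_assoc, ← Finset.mul_sum]
        rw [hf g hg, mul_zero] }
  have hUmem : ∀ f, f ∈ U ↔ ∀ g ∈ Vr p K s, ∑ x, f x * g x = 0 := fun f => Iff.rfl
  have hUshift : ∀ f ∈ U, shiftL p K f ∈ U := by
    intro f hf g hg
    have h1 := hf _ (shift_inv_mem_Vr hg)
    rw [← h1]
    refine Fintype.sum_equiv (Equiv.subRight (1 : ZMod p)) _ _ (fun x => ?_)
    show f (x - 1) * g x = f (x - 1) * g (x - 1 + 1)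
    rw [sub_add_cancel]
  obtain ⟨hule, hU⟩ := invariant_eq_Vr U hUshift
  have hle1 : Vr p K (p - s) ≤ U := by
    intro f hf g hg
    rw [mem_Vr] at hf hg
    obtain ⟨P, hP, hfP⟩ := hf
    obtain ⟨Q, hQ, hgQ⟩ := hg
    have h1 : ∀ x, f x * g x = (P * Q).eval (ZMod.cast x : K) := by
      intro x
      rw [hfP, hgQ, eval_mul]
    simp_rw [h1]
    by_cases hP0 : P = 0
    · rw [hP0, zero_mul]; simp
    by_cases hQ0 : Q = 0
    · rw [hQ0, mul_zero]; simp
    apply sum_eval_eq_zero
    rw [natDegree_mul hP0 hQ0]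
    have h2 : P.natDegree < p - s := (natDegree_lt_iff_degree_lt hP0).mpr hP
    have h3 : Q.natDegree < s := (natDegree_lt_iff_degree_lt hQ0).mpr hQ
    omega
  have hu1 : p - s ≤ finrank K U := by
    have := Submodule.finrank_mono hle1
    rwa [finrank_Vr (by omega)] at this
  have hu2 : finrank K U ≤ p - s := by
    by_contra hcon
    push Not at hcon
    have h1 : evalFun p K (X ^ (p - s)) ∈ U := by
      rw [hU]
      exact evalFun_X_pow_mem _ _ hcon
    have h2 := h1 _ (evalFun_X_pow_mem (p := p) (K := K) (s - 1) s (by omega))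
    have h3 : ∀ x : ZMod p, evalFun p K (X ^ (p - s)) x * evalFun p K (X ^ (s - 1)) x =
        (ZMod.cast x : K) ^ (p - 1) := by
      intro x
      rw [evalFun_apply, evalFun_apply, eval_pow, eval_pow, eval_X, ← pow_add]
      congr 1
      omega
    simp_rw [h3] at h2
    rw [sum_cast_pow_eq] at h2
    exact one_ne_zero (neg_eq_zero.mp h2)
  have hUeq : U = Vr p K (p - s) := by
    rw [hU]
    congr 1
    omega
  intro f hf
  rw [← hUeq] at hf ⊢
  intro g hg
  have h1 := hf _ (h g hg)
  rw [← h1]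
  refine Fintype.sum_equiv σ _ _ (fun x => ?_)
  show f (σ x) * g x = f (σ x) * g (σ.symm (σ x))
  rw [Equiv.symm_apply_apply]

/-- the core lemma: a permutation of `ZMod p` preserving the polynomial functions of degree at
most `d`, `1 ≤ d ≤ (p - 1) / 2`, is affine -/
theorem affine_of_invariant (σ : Equiv.Perm (ZMod p)) {d : ℕ} (hd1 : 1 ≤ d) (hd2 : 2 * d ≤ p - 1)
    (h : ∀ f ∈ Vr p K (d + 1), f ∘ σ ∈ Vr p K (d + 1)) :
    ∃ a b : ZMod p, ∀ x, σ x = a * x + b := by
  have hp : p.Prime := Fact.out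
  have hp2 := hp.two_le
  obtain ⟨γ, hγdeg, hγ⟩ := exists_poly (p := p) (K := K) (fun x => (ZMod.cast (σ x) : K))
  have hγ' : ∀ x : ZMod p, γ.eval (ZMod.cast x : K) = (ZMod.cast (σ x) : K) := fun x => (hγ x).symm
  -- the degree of γ
  have hγ0 : γ ≠ 0 := by
    intro h0
    have h1 := hγ' 0
    have h2 := hγ' 1
    rw [h0, eval_zero] at h1 h2
    have h3 : σ 0 = σ 1 := cast_injective (K := K) (h1.symm.trans h2)
    exact zero_ne_one (σ.injective h3)
  have hγlt : γ.natDegree < p := (natDegree_lt_iff_degree_lt hγ0).mpr hγdeg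
  have hstep : ∀ j : ℕ, j ≤ d → j * γ.natDegree < p → j * γ.natDegree ≤ d := by
    intro j hj hjp
    have h1 := h _ (evalFun_X_pow_mem (p := p) (K := K) j (d + 1) (by omega))
    rw [mem_Vr] at h1
    obtain ⟨Q, hQ, hQe⟩ := h1
    have h2 : evalFun p K (γ ^ j - Q) = 0 := by
      funext x
      rw [evalFun_apply, eval_sub, eval_pow, hγ', ← hQe]
      show (ZMod.cast (σ x) : K) ^ j - (evalFun p K (X ^ j)) (σ x) = 0
      rw [evalFun_apply, eval_pow, eval_X, sub_self]
    have h3 : (γ ^ j - Q).degree < p := by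
      refine lt_of_le_of_lt (degree_sub_le _ _) (max_lt ?_ ?_)
      · refine lt_of_le_of_lt degree_le_natDegree ?_
        rw [natDegree_pow]
        exact_mod_cast hjp
      · exact lt_of_lt_of_le hQ (by exact_mod_cast (by omega : d + 1 ≤ p))
    have h4 : γ ^ j = Q := sub_eq_zero.mp (eq_zero_of_evalFun h3 h2)
    have h5 : Q.natDegree = j * γ.natDegree := by rw [← h4, natDegree_pow]
    rw [← h5]
    by_cases hQ0 : Q = 0
    · rw [hQ0, natDegree_zero]; exact Nat.zero_le _
    · have := (natDegree_lt_iff_degree_lt hQ0).mpr hQ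
      omega
  have he1 : 1 ≤ γ.natDegree := by
    by_contra hcon
    have h0 : γ.natDegree = 0 := by omega
    obtain ⟨c, hc⟩ := natDegree_eq_zero.mp h0
    have h1 := hγ' 0
    have h2 := hγ' 1
    rw [← hc, eval_C] at h1 h2
    have h3 : σ 0 = σ 1 := cast_injective (K := K) (h1.symm.trans h2)
    exact zero_ne_one (σ.injective h3)
  have hed : γ.natDegree ≤ d := by
    have := hstep 1 hd1 (by rw [one_mul]; exact hγlt)
    rwa [one_mul] at this
  have he : γ.natDegree = 1 := by
    obtain ⟨e, hedef⟩ : ∃ e, e = γ.natDegree := ⟨_, rfl⟩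
    rw [← hedef] at he1 hed hstep ⊢
    have hdm := Nat.div_add_mod (p - 1) e
    have hmod : (p - 1) % e < e := Nat.mod_lt _ (by omega)
    by_cases hj : (p - 1) / e ≤ d
    · exfalso
      have h1 := hstep ((p - 1) / e) hj (by
        have : (p - 1) / e * e ≤ p - 1 := Nat.div_mul_le_self _ _
        omega)
      rw [mul_comm] at h1
      omega
    · have h1 : d * e ≤ (p - 1) / e * e := Nat.mul_le_mul_right e (by omega)
      have h2 : (p - 1) / e * e ≤ p - 1 := Nat.div_mul_le_self _ _
      have h3 := hstep d le_rfl (by omega)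
      have h4 : d * e ≤ d * 1 := by omega
      have h5 := Nat.le_of_mul_le_mul_left h4 (by omega)
      omega
  have hγform := eq_X_add_C_of_natDegree_le_one (p := γ) (by omega)
  refine ⟨σ 1 - σ 0, σ 0, fun x => ?_⟩
  apply cast_injective (K := K)
  have hcast : ∀ u v : ZMod p, (ZMod.cast (u * v + σ 0) : K) = ZMod.cast u * ZMod.cast v + ZMod.cast (σ 0) := by
    intro u v
    have h1 := map_add (ZMod.castHom (dvd_refl p) K) (u * v) (σ 0)
    rw [map_mul] at h1
    exact h1
  have hcsub : (ZMod.cast (σ 1 - σ 0) : K) = ZMod.cast (σ 1) - ZMod.cast (σ 0) :=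
    map_sub (ZMod.castHom (dvd_refl p) K) (σ 1) (σ 0)
  have hc0 : (ZMod.cast (0 : ZMod p) : K) = 0 := map_zero (ZMod.castHom (dvd_refl p) K)
  have hc1 : (ZMod.cast (1 : ZMod p) : K) = 1 := map_one (ZMod.castHom (dvd_refl p) K)
  have e0 := hγ' 0
  have e1 := hγ' 1
  have ex := hγ' x
  rw [hγform] at e0 e1 ex
  simp only [eval_add, eval_mul, eval_C, eval_X, hc0, hc1] at e0 e1 ex
  rw [hcast, hcsub, ← ex, ← e1, ← e0]
  ring

end powersum

section affine

variable {p : ℕ} [Fact p.Prime]

/-- a group of affine permutations of `ZMod p` is solvable -/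
theorem solvable_of_affine {G : Type*} [Group G] (ψ : G →* Equiv.Perm (ZMod p))
    (hinj : Function.Injective ψ) (haff : ∀ g, ∃ a b : ZMod p, ∀ x, ψ g x = a * x + b) :
    Group.IsSolvable G := by
  have hp : p.Prime := Fact.out
  let T : Subgroup G :=
    { carrier := {g | ∃ b : ZMod p, ∀ x, ψ g x = x + b}
      one_mem' := ⟨0, fun x => by simp⟩
      mul_mem' := by
        rintro g h ⟨b, hb⟩ ⟨c, hc⟩
        refine ⟨c + b, fun x => ?_⟩
        rw [map_mul, Equiv.Perm.mul_apply, hc, hb]
        ring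
      inv_mem' := by
        rintro g ⟨b, hb⟩
        refine ⟨-b, fun x => ?_⟩
        apply (ψ g).injective
        rw [map_inv, perm_apply_inv, hb]
        ring }
  have hTmem : ∀ g, g ∈ T ↔ ∃ b : ZMod p, ∀ x, ψ g x = x + b := fun g => Iff.rfl
  have hcomm : ∀ g h : G, ⁅g, h⁆ ∈ T := by
    intro g h
    obtain ⟨a, b, hg⟩ := haff g
    obtain ⟨c, d, hh⟩ := haff h
    have ha : a ≠ 0 := by
      rintro rfl
      have h0 := hg 0
      have h1 := hg 1
      rw [zero_mul] at h0 h1
      exact zero_ne_one ((ψ g).injective (h0.trans h1.symm))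
    have hc : c ≠ 0 := by
      rintro rfl
      have h0 := hh 0
      have h1 := hh 1
      rw [zero_mul] at h0 h1
      exact zero_ne_one ((ψ h).injective (h0.trans h1.symm))
    have hginv : ∀ y, ψ g⁻¹ y = a⁻¹ * (y - b) := by
      intro y
      apply (ψ g).injective
      rw [map_inv, perm_apply_inv, hg]
      field_simp
      ring
    have hhinv : ∀ y, ψ h⁻¹ y = c⁻¹ * (y - d) := by
      intro y
      apply (ψ h).injective
      rw [map_inv, perm_apply_inv, hh]
      field_simp
      ring
    rw [hTmem]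
    refine ⟨-d - c * b + a * d + b, fun x => ?_⟩
    rw [commutatorElement_def, map_mul, map_mul, map_mul, Equiv.Perm.mul_apply,
      Equiv.Perm.mul_apply, Equiv.Perm.mul_apply, hhinv, hginv, hh, hg]
    field_simp
    ring
  have hTcomm : ∀ g ∈ T, ∀ h ∈ T, ⁅g, h⁆ ∈ (⊥ : Subgroup G) := by
    intro g hg h hh
    rw [Subgroup.mem_bot, commutatorElement_eq_one_iff_mul_comm]
    obtain ⟨b, hb⟩ := hg
    obtain ⟨c, hc⟩ := hh
    apply hinj
    apply Equiv.ext
    intro x
    rw [map_mul, map_mul, Equiv.Perm.mul_apply, Equiv.Perm.mul_apply, hc, hb, hb, hc]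
    ring
  rw [Group.isSolvable_def]
  refine ⟨2, ?_⟩
  rw [eq_bot_iff, derivedSeries_succ, derivedSeries_succ, derivedSeries_zero]
  have h1 : ⁅(⊤ : Subgroup G), (⊤ : Subgroup G)⁆ ≤ T :=
    Subgroup.commutator_le.mpr (fun g _ h _ => hcomm g h)
  exact (Subgroup.commutator_mono h1 h1).trans (Subgroup.commutator_le.mpr hTcomm)

end affine

section main

variable {α : Type*} [Fintype α] [DecidableEq α] {p : ℕ} [Fact p.Prime] {K : Type*} [Field K]
  [CharP K p]

/-- transport of functions along the coordinates -/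
noncomputable def funL (K : Type*) [Field K] (e : α ≃ ZMod p) : (α → K) ≃ₗ[K] (ZMod p → K) :=
  LinearEquiv.funCongrLeft K K e.symm

theorem funL_apply (e : α ≃ ZMod p) (f : α → K) (j : ZMod p) : funL K e f j = f (e.symm j) := rfl

/-- an invariant subspace of the permutation module of a group of prime degree containing the
translation is a space of polynomial functions -/
theorem transport (G : Subgroup (Equiv.Perm α)) (e : α ≃ ZMod p) (t : Equiv.Perm α) (ht : t ∈ G)
    (hte : ∀ a, e (t a) = e a + 1) (W : Subrepresentation (Cfsg.permRep K G α)) :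
    finrank K W.toSubmodule ≤ p ∧
      W.toSubmodule.map (funL K e).toLinearMap = Vr p K (finrank K W.toSubmodule) := by
  have hshift : ∀ f ∈ W.toSubmodule.map (funL K e).toLinearMap,
      shiftL p K f ∈ W.toSubmodule.map (funL K e).toLinearMap := by
    rintro _ ⟨f, hf, rfl⟩
    refine ⟨Cfsg.permRep K G α ⟨t, ht⟩ f, W.apply_mem_toSubmodule _ hf, ?_⟩
    funext j
    show f ((⟨t, ht⟩ : G)⁻¹ • e.symm j) = f (e.symm (j - 1))
    congr 1
    rw [inv_smul_eq_iff]
    show e.symm j = t (e.symm (j - 1))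
    apply e.injective
    rw [hte, Equiv.apply_symm_apply, Equiv.apply_symm_apply, sub_add_cancel]
  have h := invariant_eq_Vr _ hshift
  rw [LinearEquiv.finrank_map_eq] at h
  exact h

/-- the conjugate of a permutation to `ZMod p` -/
def conjPerm (e : α ≃ ZMod p) (g : Equiv.Perm α) : Equiv.Perm (ZMod p) := e.permCongrHom g

theorem conjPerm_apply (e : α ≃ ZMod p) (g : Equiv.Perm α) (x : ZMod p) :
    conjPerm e g x = e (g (e.symm x)) := rfl

theorem conjPerm_symm (e : α ≃ ZMod p) (g : Equiv.Perm α) :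
    (conjPerm e g).symm = conjPerm e g⁻¹ := by
  apply Equiv.ext
  intro x
  rw [Equiv.symm_apply_eq, conjPerm_apply, conjPerm_apply, Equiv.symm_apply_apply,
    perm_apply_inv, Equiv.apply_symm_apply]

theorem invariant_of_subrep (G : Subgroup (Equiv.Perm α)) (e : α ≃ ZMod p) (t : Equiv.Perm α)
    (ht : t ∈ G) (hte : ∀ a, e (t a) = e a + 1) (W : Subrepresentation (Cfsg.permRep K G α))
    (g : Equiv.Perm α) (hg : g ∈ G) :
    ∀ f ∈ Vr p K (finrank K W.toSubmodule), f ∘ (conjPerm e g) ∈ Vr p K (finrank K W.toSubmodule) := by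
  rw [← (transport G e t ht hte W).2]
  rintro _ ⟨f, hf, rfl⟩
  refine ⟨Cfsg.permRep K G α (⟨g, hg⟩ : G)⁻¹ f, W.apply_mem_toSubmodule _ hf, ?_⟩
  funext x
  show f (((⟨g, hg⟩ : G)⁻¹)⁻¹ • e.symm x) = f (e.symm (e (g (e.symm x))))
  rw [inv_inv, Equiv.symm_apply_apply]
  rfl

/-- an invariant subspace of dimension `s`, `2 ≤ s`, with `s ≤ p - 2` or `2 s ≤ p + 1`, forces
every element of the group to be affine in the coordinates -/
theorem affine_of_subrep (G : Subgroup (Equiv.Perm α)) (e : α ≃ ZMod p) (t : Equiv.Perm α)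
    (ht : t ∈ G) (hte : ∀ a, e (t a) = e a + 1) (W : Subrepresentation (Cfsg.permRep K G α))
    (h2 : 2 ≤ finrank K W.toSubmodule)
    (h3 : finrank K W.toSubmodule ≤ p - 2 ∨ 2 * finrank K W.toSubmodule ≤ p + 1)
    (g : Equiv.Perm α) (hg : g ∈ G) :
    ∃ a b : ZMod p, ∀ x, conjPerm e g x = a * x + b := by
  have hp : p.Prime := Fact.out
  have hp2 := hp.two_le
  obtain ⟨s, hs⟩ : ∃ s, s = finrank K W.toSubmodule := ⟨_, rfl⟩
  have hinv := invariant_of_subrep (K := K) G e t ht hte W g hg
  have hinv' := invariant_of_subrep (K := K) G e t ht hte W g⁻¹ (G.inv_mem hg)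
  have hsp := (transport (K := K) G e t ht hte W).1
  rw [← hs] at h2 h3 hinv hinv' hsp
  by_cases hcase : 2 * s ≤ p + 1
  · have h4 : s - 1 + 1 = s := by omega
    exact affine_of_invariant (K := K) (conjPerm e g) (d := s - 1) (by omega) (by omega)
      (by rw [h4]; exact hinv)
  · have hs2 : s ≤ p - 2 := by
      rcases h3 with h3 | h3
      · exact h3
      · exact absurd h3 hcase
    have hd := dual_invariant (K := K) (conjPerm e g) (s := s) (by omega) (by omega)
      (by rw [conjPerm_symm]; exact hinv')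
    have h4 : p - s - 1 + 1 = p - s := by omega
    exact affine_of_invariant (K := K) (conjPerm e g) (d := p - s - 1) (by omega) (by omega)
      (by rw [h4]; exact hd)

/-- an invariant subspace of the permutation module of dimension `s`, `2 ≤ s`, with
`s ≤ p - 2` or `2 s ≤ p + 1`, forces a transitive group of prime degree `p` to be solvable -/
theorem solvable_of_subrep (hα : Fintype.card α = p) (G : Subgroup (Equiv.Perm α))
    [MulAction.IsPretransitive G α] (W : Subrepresentation (Cfsg.permRep K G α))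
    (h2 : 2 ≤ finrank K W.toSubmodule)
    (h3 : finrank K W.toSubmodule ≤ p - 2 ∨ 2 * finrank K W.toSubmodule ≤ p + 1) :
    Group.IsSolvable G := by
  obtain ⟨e, t, ht, hte⟩ := exists_coord hα G
  refine solvable_of_affine (p := p) ((e.permCongrHom.toMonoidHom).comp G.subtype) ?_ ?_
  · intro g h hgh
    apply Subtype.ext
    exact e.permCongrHom.injective hgh
  · intro g
    exact affine_of_subrep (K := K) G e t ht hte W h2 h3 g g.2

end main

end Cfsg.Agent.Lib.Helper12.PrimeDeg
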