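import Mathlib

set_option autoImplicit false
set_option linter.unusedSectionVars false

/-!
Permutations of a set of prime size `p`: coordinates in `ZMod p` for a given element of order `p`,
the Sylow `p`-subgroup of a transitive group of degree `p` has order `p`, and the elements of its
normaliser are affine in the coordinates; an involution of the normaliser is `x ↦ -x` in suitable
coordinates.
-/

namespace Cfsg.Agent.Lib.Helper12.PrimeDeg2

open MulAction

section coord

variable {β : Type*} [Fintype β] [DecidableEq β] {p : ℕ} [Fact p.Prime]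

/-- coordinates: a bijection with `ZMod p` turning a given permutation of order `p` into
`x ↦ x + 1` -/
theorem exists_coord_of_orderOf (hβ : Fintype.card β = p) (t : Equiv.Perm β)
    (hσ : orderOf t = p) : ∃ e : β ≃ ZMod p, ∀ a, e (t a) = e a + 1 := by
  have hp : p.Prime := Fact.out
  have hne : Nonempty β := by
    rw [← Fintype.card_pos_iff, hβ]
    exact hp.pos
  obtain ⟨a₀⟩ := hne
  have hcyc : t.IsCycle :=
    Equiv.Perm.isCycle_of_prime_order'' (by rw [hβ]; exact hp) (by rw [hσ, hβ])
  have hsupp : t.support = Finset.univ := by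
    apply Finset.eq_univ_of_card
    rw [← hcyc.orderOf, hσ, hβ]
  have hmove : t a₀ ≠ a₀ := by
    rw [← Equiv.Perm.mem_support, hsupp]
    exact Finset.mem_univ _
  have hfix : ∀ m : ℕ, (t ^ m) a₀ = a₀ → p ∣ m := by
    intro m hm
    have h1 : t ^ m = 1 := hcyc.pow_eq_one_iff.mpr ⟨a₀, hmove, hm⟩
    rw [← hσ]
    exact orderOf_dvd_of_pow_eq_one h1
  let φ : ZMod p → β := fun i => (t ^ i.val) a₀
  have hinj : Function.Injective φ := by
    intro i j hij
    have key : ∀ i j : ZMod p, i.val ≤ j.val → φ i = φ j → i = j := by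
      intro i j hle h
      have h1 : (t ^ (j.val - i.val)) a₀ = a₀ := by
        have h2 : (t ^ j.val) a₀ = (t ^ i.val) ((t ^ (j.val - i.val)) a₀) := by
          rw [← Equiv.Perm.mul_apply, ← pow_add, Nat.add_sub_cancel' hle]
        have h3 : (t ^ i.val) a₀ = (t ^ i.val) ((t ^ (j.val - i.val)) a₀) := by
          rw [← h2]
          exact h
        exact (t ^ i.val).injective h3.symm
      have h4 := hfix _ h1
      have h5 : j.val < p := ZMod.val_lt j
      have h6 : j.val - i.val = 0 := Nat.eq_zero_of_dvd_of_lt h4 (by omega)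
      apply ZMod.val_injective
      omega
    rcases le_total i.val j.val with h | h
    · exact key i j h hij
    · exact (key j i h hij.symm).symm
  have hbij : Function.Bijective φ := by
    rw [Fintype.bijective_iff_injective_and_card]
    exact ⟨hinj, by rw [ZMod.card, hβ]⟩
  refine ⟨(Equiv.ofBijective φ hbij).symm, fun a => ?_⟩
  obtain ⟨i, rfl⟩ := hbij.2 a
  have h1 : t (φ i) = φ (i + 1) := by
    show t ((t ^ i.val) a₀) = (t ^ (i + 1).val) a₀
    rw [← Equiv.Perm.mul_apply, ← pow_succ']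
    congr 1
    rw [pow_eq_pow_iff_modEq, hσ, ZMod.val_add, ZMod.val_one]
    exact (Nat.mod_modEq _ _).symm
  rw [h1]
  have h2 : ∀ j, (Equiv.ofBijective φ hbij).symm (φ j) = j := fun j =>
    (Equiv.ofBijective φ hbij).symm_apply_apply j
  rw [h2, h2]

theorem coord_pow (e : β ≃ ZMod p) (t : Equiv.Perm β) (h : ∀ a, e (t a) = e a + 1) (n : ℕ)
    (a : β) : e ((t ^ n) a) = e a + n := by
  induction n with
  | zero => simp
  | succ n ih =>
    rw [pow_succ', Equiv.Perm.mul_apply, h, ih]
    push_cast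
    ring

/-- an element conjugating `t` to `t ^ i` is affine in the coordinates -/
theorem affine_of_conj (e : β ≃ ZMod p) (t s : Equiv.Perm β) (h : ∀ a, e (t a) = e a + 1) (i : ℕ)
    (hs : s * t * s⁻¹ = t ^ i) : ∀ a, e (s a) = e (s (e.symm 0)) + i * e a := by
  have hp : p.Prime := Fact.out
  have h1 : ∀ a, s (t a) = (t ^ i) (s a) := by
    intro a
    have h2 : s * t = t ^ i * s := by rw [← hs]; group
    have h3 := congrArg (fun f : Equiv.Perm β => f a) h2
    exact h3
  have h2 : ∀ x : ZMod p, e.symm (x + 1) = t (e.symm x) := by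
    intro x
    apply e.injective
    rw [h, Equiv.apply_symm_apply, Equiv.apply_symm_apply]
  have h3 : ∀ n : ℕ, e (s (e.symm (n : ZMod p))) = e (s (e.symm 0)) + i * n := by
    intro n
    induction n with
    | zero => simp
    | succ n ih =>
      rw [Nat.cast_succ, h2, h1, coord_pow e t h, ih]
      ring
  intro a
  have h4 := h3 (e a).val
  rw [ZMod.natCast_zmod_val, Equiv.symm_apply_apply] at h4
  exact h4

theorem two_ne_zero_of_ne (hp2 : p ≠ 2) : (2 : ZMod p) ≠ 0 := by
  have hp : p.Prime := Fact.out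
  intro h
  have h1 : ((2 : ℕ) : ZMod p) = 0 := by exact_mod_cast h
  rw [ZMod.natCast_eq_zero_iff] at h1
  exact hp2 ((Nat.prime_dvd_prime_iff_eq hp Nat.prime_two).mp h1)

/-- a non-trivial involution normalising `⟨t⟩` inverts `t` -/
theorem conj_exp_eq_neg_one (hp2 : p ≠ 2) (e : β ≃ ZMod p) (t s : Equiv.Perm β)
    (h : ∀ a, e (t a) = e a + 1) (i : ℕ) (hs : s * t * s⁻¹ = t ^ i) (hs1 : s ≠ 1)
    (hss : s * s = 1) : (i : ZMod p) = -1 := by
  have hp : p.Prime := Fact.out
  have h2 := two_ne_zero_of_ne hp2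
  have haff := affine_of_conj e t s h i hs
  obtain ⟨c, hc⟩ : ∃ c, c = e (s (e.symm 0)) := ⟨_, rfl⟩
  rw [← hc] at haff
  have hinv : ∀ a, e a = c + i * (c + i * e a) := by
    intro a
    rw [← haff, ← haff, ← Equiv.Perm.mul_apply, hss, Equiv.Perm.one_apply]
  have h0 := hinv (e.symm 0)
  have h1 := hinv (e.symm 1)
  rw [Equiv.apply_symm_apply] at h0 h1
  have hi2 : ((i : ZMod p) - 1) * ((i : ZMod p) + 1) = 0 := by
    linear_combination h0 - h1
  rcases mul_eq_zero.mp hi2 with hi | hi
  · exfalso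
    have hi1 : (i : ZMod p) = 1 := by linear_combination hi
    rw [hi1] at h0 haff
    have hc0 : c = 0 := by
      have : (2 : ZMod p) * c = 0 := by linear_combination -h0
      rcases mul_eq_zero.mp this with h | h
      · exact absurd h h2
      · exact h
    apply hs1
    ext a
    apply e.injective
    rw [haff, hc0, Equiv.Perm.one_apply]
    ring
  · linear_combination hi

/-- coordinates in which `t` is `x ↦ x + 1` and an element inverting `t` is `x ↦ -x` -/
theorem exists_coord_neg (hp2 : p ≠ 2) (e : β ≃ ZMod p) (t s : Equiv.Perm β)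
    (h : ∀ a, e (t a) = e a + 1) (i : ℕ) (hs : s * t * s⁻¹ = t ^ i) (hi : (i : ZMod p) = -1) :
    ∃ e' : β ≃ ZMod p, (∀ a, e' (t a) = e' a + 1) ∧ ∀ a, e' (s a) = - e' a := by
  have h2 := two_ne_zero_of_ne hp2
  have haff := affine_of_conj e t s h i hs
  obtain ⟨c, hc⟩ : ∃ c, c = e (s (e.symm 0)) := ⟨_, rfl⟩
  rw [← hc, hi] at haff
  refine ⟨e.trans (Equiv.subRight (c / 2)), fun a => ?_, fun a => ?_⟩
  · show e (t a) - c / 2 = e a - c / 2 + 1
    rw [h]
    ring
  · show e (s a) - c / 2 = - (e a - c / 2)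
    rw [haff]
    field_simp
    ring

end coord

section sylow

variable {α : Type*} [Fintype α] [DecidableEq α] {p : ℕ} [Fact p.Prime]

theorem not_sq_dvd_card (hα : Fintype.card α = p) (G : Subgroup (Equiv.Perm α)) :
    ¬ p ^ 2 ∣ Nat.card G := by
  have hp : p.Prime := Fact.out
  intro h
  have h3 : Nat.card G ∣ p.factorial := by
    have h5 := Subgroup.card_subgroup_dvd_card G
    rw [Nat.card_perm, Nat.card_eq_fintype_card (α := α), hα] at h5
    exact h5
  have h4 : p ^ 2 ∣ p.factorial := h.trans h3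
  obtain ⟨m, hm⟩ : ∃ m, p = m + 1 := ⟨p - 1, by have := hp.two_le; omega⟩
  have h5 : p ∣ m.factorial := by
    rw [hm, Nat.factorial_succ, pow_two] at h4
    rw [hm]
    exact Nat.dvd_of_mul_dvd_mul_left (by omega) h4
  have := (hp.dvd_factorial).mp h5
  omega

theorem dvd_card (hα : Fintype.card α = p) (G : Subgroup (Equiv.Perm α))
    [MulAction.IsPretransitive G α] : p ∣ Nat.card G := by
  have hp : p.Prime := Fact.out
  have hne : Nonempty α := by
    rw [← Fintype.card_pos_iff, hα]
    exact hp.pos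
  obtain ⟨a₀⟩ := hne
  have h1 : (stabilizer G a₀).index = p := by
    rw [index_stabilizer_of_transitive, Nat.card_eq_fintype_card, hα]
  rw [← h1]
  exact Subgroup.index_dvd_card _

/-- the Sylow `p`-subgroups of a transitive group of degree `p` have order `p` -/
theorem card_sylow (hα : Fintype.card α = p) (G : Subgroup (Equiv.Perm α))
    [MulAction.IsPretransitive G α] (P : Sylow p G) : Nat.card P = p := by
  have hp : p.Prime := Fact.out
  have h1 : p ∣ Nat.card P := P.dvd_card_of_dvd_card (dvd_card hα G)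
  have h2 : Nat.card P ∣ Nat.card G := Subgroup.card_subgroup_dvd_card _
  obtain ⟨k, hk⟩ := IsPGroup.iff_card.mp P.isPGroup'
  have hk1 : k ≠ 0 := by
    rintro rfl
    rw [hk, pow_zero] at h1
    exact hp.one_lt.ne' (Nat.dvd_one.mp h1)
  have hk2 : k < 2 := by
    by_contra hcon
    apply not_sq_dvd_card hα G
    rw [hk] at h2
    exact (pow_dvd_pow p (by omega)).trans h2
  have hk3 : k = 1 := by omega
  rw [hk, hk3, pow_one]

/-- a generator of the Sylow `p`-subgroup, and the normaliser acts on it by powers -/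
theorem exists_gen (hα : Fintype.card α = p) (G : Subgroup (Equiv.Perm α))
    [MulAction.IsPretransitive G α] (P : Sylow p G) :
    ∃ t : G, t ∈ (P : Subgroup G) ∧ orderOf t = p ∧
      ∀ s ∈ Subgroup.normalizer ((P : Subgroup G) : Set G), ∃ i : ℕ, s * t * s⁻¹ = t ^ i := by
  have hp : p.Prime := Fact.out
  have hcard := card_sylow hα G P
  have hnt : Nontrivial (P : Subgroup G) := by
    rw [← Finite.one_lt_card_iff_nontrivial, hcard]
    exact hp.one_lt
  obtain ⟨t₀, ht₀⟩ := exists_ne (1 : (P : Subgroup G))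
  have hord : orderOf t₀ = p := by
    apply orderOf_eq_prime _ ht₀
    have h5 : t₀ ^ Nat.card (P : Subgroup G) = 1 := pow_card_eq_one'
    rw [hcard] at h5
    exact h5
  refine ⟨(t₀ : G), t₀.2, ?_, fun s hs => ?_⟩
  · rw [Subgroup.orderOf_coe, hord]
  · have h1 : s * (t₀ : G) * s⁻¹ ∈ (P : Subgroup G) := (Subgroup.mem_normalizer_iff.mp hs _).mp t₀.2
    have h2 : (⟨_, h1⟩ : (P : Subgroup G)) ∈ Submonoid.powers t₀ :=
      mem_powers_of_prime_card hcard ht₀
    obtain ⟨i, hi⟩ := h2
    refine ⟨i, ?_⟩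
    have h3 := congrArg (Subtype.val) hi
    exact h3.symm

/-- coordinates in which a generator `t` of a Sylow `p`-subgroup is the translation by `1` and
an involution `s` of its normaliser is `x ↦ -x` -/
theorem exists_setup (hα : Fintype.card α = p) (hp2 : p ≠ 2) (G : Subgroup (Equiv.Perm α))
    [MulAction.IsPretransitive G α] (P : Sylow p G)
    (heven : Even (Nat.card (Subgroup.normalizer ((P : Subgroup G) : Set G)))) :
    ∃ (e : α ≃ ZMod p) (t s : G), (∀ a, e ((t : Equiv.Perm α) a) = e a + 1) ∧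
      (∀ a, e ((s : Equiv.Perm α) a) = - e a) ∧ s ≠ 1 ∧ s * s = 1 ∧ orderOf t = p ∧
      ∃ i : ℕ, s * t * s⁻¹ = t ^ i ∧ (i : ZMod p) = -1 := by
  have hp : p.Prime := Fact.out
  obtain ⟨t, -, htord, hnorm⟩ := exists_gen hα G P
  have : Fact (Nat.Prime 2) := ⟨Nat.prime_two⟩
  obtain ⟨s₀, hs₀⟩ := exists_prime_orderOf_dvd_card' 2 heven.two_dvd
  have hs1 : (s₀ : G) ≠ 1 := by
    intro h
    have : s₀ = 1 := Subtype.ext h
    rw [this, orderOf_one] at hs₀
    omega
  have hss : (s₀ : G) * (s₀ : G) = 1 := by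
    have h := pow_orderOf_eq_one s₀
    rw [hs₀, pow_two] at h
    exact congrArg Subtype.val h
  obtain ⟨i, hi⟩ := hnorm (s₀ : G) s₀.2
  have htord' : orderOf (t : Equiv.Perm α) = p := by rw [Subgroup.orderOf_coe, htord]
  obtain ⟨e, he⟩ := exists_coord_of_orderOf hα (t : Equiv.Perm α) htord'
  have hi' : ((s₀ : G) : Equiv.Perm α) * (t : Equiv.Perm α) * ((s₀ : G) : Equiv.Perm α)⁻¹ =
      (t : Equiv.Perm α) ^ i := by
    have := congrArg (Subtype.val) hi
    exact this
  have hs1' : ((s₀ : G) : Equiv.Perm α) ≠ 1 := fun h => hs1 (Subtype.ext h)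
  have hss' : ((s₀ : G) : Equiv.Perm α) * ((s₀ : G) : Equiv.Perm α) = 1 := by
    have := congrArg (Subtype.val) hss
    exact this
  have hi1 := conj_exp_eq_neg_one hp2 e _ _ he i hi' hs1' hss'
  obtain ⟨e', he'1, he'2⟩ := exists_coord_neg hp2 e _ _ he i hi' hi1
  exact ⟨e', t, (s₀ : G), he'1, he'2, hs1, hss, htord, i, hi, hi1⟩

end sylow

end Cfsg.Agent.Lib.Helper12.PrimeDeg2
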