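import Mathlib
import Cfsg.Agent.Lib.Helper12.PrimeDeg2

set_option autoImplicit false
set_option linter.unusedSectionVars false

/-!
Transitive permutation groups of prime degree `p`, continued: non-trivial normal subgroups are
transitive, a self-normalising Sylow `p`-subgroup forces `|G| = p` (Burnside transfer), and the
order of the Sylow normaliser is `p * d` with `d ∣ p - 1`.
-/

namespace Cfsg.Agent.Lib.Helper12.PrimeDeg3

open MulAction Cfsg.Agent.Lib.Helper12.PrimeDeg2

section

variable {α : Type*} [Fintype α] [DecidableEq α] {p : ℕ} [Fact p.Prime]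

/-- orbit-stabiliser -/
theorem card_eq_stab_mul_orbit {K : Type*} [Group K] {β : Type*} [MulAction K β] (x : β) :
    Nat.card K = Nat.card (stabilizer K x) * (orbit K x).ncard := by
  rw [← MulAction.index_stabilizer, Subgroup.card_mul_index]

/-- a non-trivial normal subgroup of a transitive group of prime degree is transitive -/
theorem dvd_card_of_normal (hα : Fintype.card α = p) (M : Subgroup (Equiv.Perm α))
    [MulAction.IsPretransitive M α] (K : Subgroup M) [K.Normal] (hK : K ≠ ⊥) :
    p ∣ Nat.card K := by
  have hp : p.Prime := Fact.out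
  have hprim : IsPreprimitive M α := by
    apply IsPreprimitive.of_prime_card
    rw [Nat.card_eq_fintype_card, hα]
    exact hp
  obtain ⟨k, hk, hk1⟩ : ∃ k ∈ K, k ≠ 1 := by
    by_contra hcon
    push Not at hcon
    apply hK
    rw [Subgroup.eq_bot_iff_forall]
    exact hcon
  obtain ⟨a, ha⟩ : ∃ a : α, (k : Equiv.Perm α) a ≠ a := by
    by_contra hcon
    push Not at hcon
    apply hk1
    apply Subtype.ext
    ext a
    exact hcon a
  have hfix : fixedPoints K α ≠ Set.univ := by
    intro h
    have h1 : a ∈ fixedPoints K α := by rw [h]; exact Set.mem_univ a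
    rw [mem_fixedPoints] at h1
    exact ha (h1 ⟨k, hk⟩)
  have htr : IsPretransitive K α := IsQuasiPreprimitive.isPretransitive_of_normal hfix
  have h1 : (stabilizer K a).index = p := by
    rw [index_stabilizer_of_transitive, Nat.card_eq_fintype_card, hα]
  rw [← h1]
  exact Subgroup.index_dvd_card _

/-- a non-trivial normal subgroup of a transitive group of prime degree is transitive -/
theorem exists_smul_of_normal (hα : Fintype.card α = p) (M : Subgroup (Equiv.Perm α))
    [MulAction.IsPretransitive M α] (K : Subgroup M) [K.Normal] (hK : K ≠ ⊥) (a b : α) :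
    ∃ k ∈ K, (k : Equiv.Perm α) a = b := by
  have hp : p.Prime := Fact.out
  have hprim : IsPreprimitive M α := by
    apply IsPreprimitive.of_prime_card
    rw [Nat.card_eq_fintype_card, hα]
    exact hp
  obtain ⟨k, hk, hk1⟩ : ∃ k ∈ K, k ≠ 1 := by
    by_contra hcon
    push Not at hcon
    apply hK
    rw [Subgroup.eq_bot_iff_forall]
    exact hcon
  obtain ⟨a', ha'⟩ : ∃ a : α, (k : Equiv.Perm α) a ≠ a := by
    by_contra hcon
    push Not at hcon
    apply hk1
    apply Subtype.ext
    ext a
    exact hcon a
  have hfix : fixedPoints K α ≠ Set.univ := by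
    intro h
    have h1 : a' ∈ fixedPoints K α := by rw [h]; exact Set.mem_univ a'
    rw [mem_fixedPoints] at h1
    exact ha' (h1 ⟨k, hk⟩)
  have htr : IsPretransitive K α := IsQuasiPreprimitive.isPretransitive_of_normal hfix
  obtain ⟨k', hk'⟩ := exists_smul_eq K a b
  exact ⟨k'.1, k'.2, hk'⟩

/-- the image in `Perm α` of a non-trivial normal subgroup is transitive -/
theorem isPretransitive_map_of_normal (hα : Fintype.card α = p) (M : Subgroup (Equiv.Perm α))
    [MulAction.IsPretransitive M α] (K : Subgroup M) [K.Normal] (hK : K ≠ ⊥) :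
    MulAction.IsPretransitive (K.map M.subtype) α := by
  refine ⟨fun a b => ?_⟩
  obtain ⟨k, hk, hkab⟩ := exists_smul_of_normal hα M K hK a b
  exact ⟨⟨(k : Equiv.Perm α), Subgroup.mem_map_of_mem _ hk⟩, hkab⟩

/-- a transitive group of prime degree with self-normalising Sylow `p`-subgroup has order `p` -/
theorem card_eq_of_normalizer (hα : Fintype.card α = p) (M : Subgroup (Equiv.Perm α))
    [MulAction.IsPretransitive M α] (P : Sylow p M)
    (hN : Nat.card (Subgroup.normalizer ((P : Subgroup M) : Set M)) = p) : Nat.card M = p := by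
  have hp : p.Prime := Fact.out
  have hcard := card_sylow hα M P
  have hNP : (P : Subgroup M) = Subgroup.normalizer ((P : Subgroup M) : Set M) :=
    Subgroup.eq_of_le_of_card_ge Subgroup.le_normalizer (by rw [hN, hcard])
  have hcyc : IsCyclic (P : Subgroup M) := isCyclic_of_prime_card hcard
  have hP : Subgroup.normalizer ((P : Subgroup M) : Set M) ≤
      Subgroup.centralizer ((P : Subgroup M) : Set M) := by
    intro x hx
    rw [← hNP] at hx
    rw [Subgroup.mem_centralizer_iff]
    intro y hy
    have h1 := (IsCyclic.commGroup (α := (P : Subgroup M))).mul_comm ⟨y, hy⟩ ⟨x, hx⟩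
    exact congrArg Subtype.val h1
  have hKc := MonoidHom.ker_transferSylow_isComplement' P hP
  have hnd := MonoidHom.not_dvd_card_ker_transferSylow P hP
  have hmul := hKc.card_mul_card
  have hbot : (MonoidHom.transferSylow P hP).ker = ⊥ := by
    by_contra hne
    exact hnd (dvd_card_of_normal hα M _ hne)
  rw [hbot, Subgroup.card_bot, one_mul, hcard] at hmul
  exact hmul.symm

/-- the order of the normaliser of a Sylow `p`-subgroup is `p * d` with `d ∣ p - 1` -/
theorem card_normalizer (hα : Fintype.card α = p) (G : Subgroup (Equiv.Perm α))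
    [MulAction.IsPretransitive G α] (P : Sylow p G) :
    ∃ d : ℕ, d ∣ p - 1 ∧ Nat.card (Subgroup.normalizer ((P : Subgroup G) : Set G)) = p * d := by
  have hp : p.Prime := Fact.out
  have hcard := card_sylow hα G P
  have hcyc : IsCyclic (P : Subgroup G) := isCyclic_of_prime_card hcard
  have key := Subgroup.card_dvd_of_injective _
    (QuotientGroup.kerLift_injective (P : Subgroup G).normalizerMonoidHom)
  rw [Subgroup.normalizerMonoidHom_ker, ← Subgroup.index, IsCyclic.card_mulAut, hcard,
    Nat.totient_prime hp] at key
  refine ⟨_, key, ?_⟩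
  rw [← Subgroup.card_mul_index ((Subgroup.centralizer ((P : Subgroup G) : Set G)).subgroupOf
    (Subgroup.normalizer ((P : Subgroup G) : Set G)))]
  congr 1
  -- the centraliser of `P` is `P`
  obtain ⟨t, htP, htord, -⟩ := exists_gen hα G P
  have htord' : orderOf (t : Equiv.Perm α) = p := by rw [Subgroup.orderOf_coe, htord]
  obtain ⟨e, he⟩ := exists_coord_of_orderOf hα (t : Equiv.Perm α) htord'
  have hsub : (Subgroup.centralizer ((P : Subgroup G) : Set G)).subgroupOf
      (Subgroup.normalizer ((P : Subgroup G) : Set G)) =
      (P : Subgroup G).subgroupOf (Subgroup.normalizer ((P : Subgroup G) : Set G)) := by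
    ext x
    rw [Subgroup.mem_subgroupOf, Subgroup.mem_subgroupOf]
    constructor
    · intro hx
      rw [Subgroup.mem_centralizer_iff] at hx
      have h1 : (x : G) * t * (x : G)⁻¹ = t ^ 1 := by
        rw [← hx t htP, pow_one]
        group
      have h2 : (((x : G) : Equiv.Perm α)) * (t : Equiv.Perm α) * (((x : G) : Equiv.Perm α))⁻¹ =
          (t : Equiv.Perm α) ^ 1 := congrArg Subtype.val h1
      have haff := affine_of_conj e _ _ he 1 h2
      obtain ⟨c, hc⟩ : ∃ c, c = e (((x : G) : Equiv.Perm α) (e.symm 0)) := ⟨_, rfl⟩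
      rw [← hc] at haff
      have h3 : (x : G) = t ^ c.val := by
        apply Subtype.ext
        ext a
        apply e.injective
        rw [haff, Subgroup.coe_pow, coord_pow e _ he, ZMod.natCast_zmod_val]
        ring
      rw [h3]
      exact (P : Subgroup G).pow_mem htP _
    · intro hx
      rw [Subgroup.mem_centralizer_iff]
      intro y hy
      have h1 := (IsCyclic.commGroup (α := (P : Subgroup G))).mul_comm ⟨y, hy⟩ ⟨x, hx⟩
      exact congrArg Subtype.val h1
  rw [hsub, Nat.card_congr (Subgroup.subgroupOfEquivOfLe Subgroup.le_normalizer).toEquiv, hcard]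

end

end Cfsg.Agent.Lib.Helper12.PrimeDeg3
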